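import Cfsg.Agent.Lib.FrobFree.Key

/-! Climbing a central chain of a nilpotent group of operators. -/

set_option autoImplicit false

namespace Cfsg.Agent.Lib.FrobFree

open scoped BigOperators
open Module

section Basic

variable {k V Ω H : Type*} [Field k] [AddCommGroup V] [Module k V] [FiniteDimensional k V]
  [Group Ω] [Group H] [Fintype H]

/-- Freeness of an invariant subspace. -/
def FreeOn (σ : H →* (Module.End k V)ˣ) (A : Submodule k V) : Prop :=
  ∃ W : Submodule k V, (⨆ h : H, W.map ((σ h : (Module.End k V)ˣ) : Module.End k V)) = A ∧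
    Fintype.card H * finrank k W = finrank k A

theorem finrank_iSup_le_sum {ι : Type*} [Fintype ι] (W : ι → Submodule k V) :
    finrank k ↥(⨆ i, W i) ≤ ∑ i, finrank k (W i) := by
  classical
  have key : ∀ s : Finset ι, finrank k ↥(s.sup W) ≤ ∑ i ∈ s, finrank k (W i) := by
    intro s
    induction s using Finset.induction_on with
    | empty => simp
    | insert a s ha ih =>
      rw [Finset.sup_insert, Finset.sum_insert ha]
      exact (Submodule.finrank_add_le_finrank_add_finrank _ _).trans (Nat.add_le_add_left ih _)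
  have := key Finset.univ
  rwa [Finset.sup_univ_eq_iSup] at this

theorem FreeOn.sup {σ : H →* (Module.End k V)ˣ} {A₁ A₂ : Submodule k V} (h₁ : FreeOn σ A₁)
    (h₂ : FreeOn σ A₂) (hd : A₁ ⊓ A₂ = ⊥) : FreeOn σ (A₁ ⊔ A₂) := by
  obtain ⟨W₁, e₁, c₁⟩ := h₁
  obtain ⟨W₂, e₂, c₂⟩ := h₂
  refine ⟨W₁ ⊔ W₂, ?_, ?_⟩
  · simp_rw [Submodule.map_sup]
    rw [iSup_sup_eq, e₁, e₂]
  · have hdim : finrank k ↥(A₁ ⊔ A₂) = finrank k A₁ + finrank k A₂ := by
      have := Submodule.finrank_sup_add_finrank_inf_eq A₁ A₂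
      rw [hd, finrank_bot, add_zero] at this
      exact this
    have hle := Submodule.finrank_add_le_finrank_add_finrank W₁ W₂
    have hspan : finrank k ↥(A₁ ⊔ A₂) ≤ Fintype.card H * finrank k ↥(W₁ ⊔ W₂) := by
      have e : A₁ ⊔ A₂ = ⨆ h : H, (W₁ ⊔ W₂).map ((σ h : (Module.End k V)ˣ) : Module.End k V) := by
        simp_rw [Submodule.map_sup]
        rw [iSup_sup_eq, e₁, e₂]
      rw [e]
      refine (finrank_iSup_le_sum _).trans ?_
      have : ∀ h : H, finrank k ↥((W₁ ⊔ W₂).map ((σ h : (Module.End k V)ˣ) : Module.End k V))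
          ≤ finrank k ↥(W₁ ⊔ W₂) := fun h => Submodule.finrank_map_le _ _
      refine (Finset.sum_le_sum (fun h _ => this h)).trans ?_
      simp
    apply le_antisymm
    · rw [hdim, ← c₁, ← c₂, ← mul_add]
      exact Nat.mul_le_mul_left _ hle
    · exact hspan

/-- Restriction of a homomorphism into endomorphisms to an invariant subspace. -/
def resEnd {G : Type*} [Group G] (u : G →* Module.End k V) (Y : Submodule k V)
    (hY : ∀ g, ∀ v ∈ Y, u g v ∈ Y) : G →* Module.End k ↥Y where
  toFun g := (u g).restrict (hY g)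
  map_one' := by
    ext v
    simp
  map_mul' a b := by
    ext v
    simp

theorem resEnd_apply {G : Type*} [Group G] (u : G →* Module.End k V) (Y : Submodule k V)
    (hY : ∀ g, ∀ v ∈ Y, u g v ∈ Y) (g : G) (v : ↥Y) :
    ((resEnd u Y hY g v : ↥Y) : V) = u g v := rfl

/-- The fixed points of a subgroup. -/
def fixS (ρ : Ω →* Module.End k V) (N : Subgroup Ω) : Submodule k V where
  carrier := {v | ∀ n ∈ N, ρ n v = v}
  add_mem' := by
    intro a b ha hb n hn
    rw [map_add, ha n hn, hb n hn]
  zero_mem' := by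
    intro n _
    exact map_zero _
  smul_mem' := by
    intro c a ha n hn
    rw [map_smul, ha n hn]

theorem mem_fixS {ρ : Ω →* Module.End k V} {N : Subgroup Ω} {v : V} :
    v ∈ fixS ρ N ↔ ∀ n ∈ N, ρ n v = v := Iff.rfl

end Basic

section SectFp

theorem iter_modEq {X : Type*} [Fintype X] [DecidableEq X] {p : ℕ} [hp : Fact p.Prime] (f : X → X)
    (hf : ∀ x, f^[p] x = x) :
    Fintype.card X ≡ Fintype.card (Function.fixedPoints f) [MOD p] := by
  let F : Function.End X := f
  have e : ∀ i : ℕ, (F ^ i : Function.End X) = f^[i] := by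
    intro i
    induction i with
    | zero => rfl
    | succ i ih =>
      rw [pow_succ, ih, Function.iterate_succ]
      rfl
  have hF : F ^ p ^ 1 = 1 := by
    rw [pow_one, e]
    funext x
    exact hf x
  exact Equiv.Perm.card_fixedPoints_modEq (f := F) hF

theorem dvd_of_no_fixed {X : Type*} [Fintype X] {p : ℕ} [hp : Fact p.Prime] (f : X → X)
    (hf : ∀ x, f^[p] x = x) (hno : ∀ x, f x ≠ x) : p ∣ Fintype.card X := by
  classical
  have h := iter_modEq f hf
  have h0 : Fintype.card (Function.fixedPoints f) = 0 := by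
    rw [Fintype.card_eq_zero_iff]
    exact ⟨fun x => hno x.1 x.2⟩
  rw [h0] at h
  exact (Nat.modEq_zero_iff_dvd).mp h

theorem modEq_of_unique_fixed {X : Type*} [Fintype X] {p : ℕ} [hp : Fact p.Prime] (f : X → X)
    (hf : ∀ x, f^[p] x = x) (a : X) (ha : f a = a) (huniq : ∀ x, f x = x → x = a) :
    Fintype.card X ≡ 1 [MOD p] := by
  classical
  have h := iter_modEq f hf
  have h0 : Fintype.card (Function.fixedPoints f) = 1 := by
    rw [Fintype.card_eq_one_iff]
    exact ⟨⟨a, ha⟩, fun x => Subtype.ext (huniq x.1 x.2)⟩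
  rwa [h0] at h

variable {Ω H : Type*} [Group Ω] [Finite Ω] [Group H] [Finite H]

theorem sect_fp (α : H →* MulAut Ω) (hfpf : ∀ h e, α h e = e → h = 1 ∨ e = 1)
    (C : Subgroup Ω) (hC : ∀ h, ∀ c ∈ C, α h c ∈ C) {h : H} (hne : h ≠ 1) {z : Ω}
    (hz : z⁻¹ * α h z ∈ C) : z ∈ C := by
  classical
  by_contra hzC
  haveI := Fintype.ofFinite Ω
  have hn1 : orderOf h ≠ 1 := fun h' => hne (orderOf_eq_one_iff.mp h')
  have hn0 : 0 < orderOf h := orderOf_pos h
  set p := (orderOf h).minFac with hp
  have hpp : p.Prime := Nat.minFac_prime hn1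
  haveI : Fact p.Prime := ⟨hpp⟩
  have hpd : p ∣ orderOf h := Nat.minFac_dvd _
  set h₀ := h ^ (orderOf h / p) with hh₀
  have hord : h₀ ^ p = 1 := by
    rw [hh₀, ← pow_mul, Nat.div_mul_cancel hpd, pow_orderOf_eq_one]
  have hh₀ne : h₀ ≠ 1 := by
    intro h'
    have := orderOf_dvd_of_pow_eq_one h'
    have h2 := Nat.le_of_dvd (Nat.div_pos (Nat.le_of_dvd hn0 hpd) hpp.pos) this
    have h3 := Nat.div_lt_self hn0 hpp.one_lt
    omega
  -- the coset
  have hstep : ∀ (i : ℕ) (w : Ω), z⁻¹ * w ∈ C → z⁻¹ * α (h ^ i) w ∈ C := by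
    intro i
    induction i with
    | zero =>
      intro w hw
      simpa using hw
    | succ i ih =>
      intro w hw
      have e : α (h ^ (i + 1)) w = α (h ^ i) (α h w) := by
        rw [pow_succ, map_mul]
        rfl
      rw [e]
      apply ih
      have e2 : z⁻¹ * α h w = (z⁻¹ * α h z) * α h (z⁻¹ * w) := by
        rw [map_mul, map_inv]
        group
      rw [e2]
      exact C.mul_mem hz (hC h _ hw)
  let f : Ω → Ω := α h₀
  have hiter : ∀ (i : ℕ) (w : Ω), f^[i] w = α (h₀ ^ i) w := by
    intro i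
    induction i with
    | zero => intro w; simp
    | succ i ih =>
      intro w
      rw [Function.iterate_succ_apply', ih, pow_succ', map_mul]
      rfl
  have hfp : ∀ w, f^[p] w = w := by
    intro w
    rw [hiter, hord]
    simp
  let S := {w : Ω // z⁻¹ * w ∈ C}
  haveI : Fintype S := Fintype.ofFinite S
  have hfS : ∀ w : S, z⁻¹ * f w.1 ∈ C := fun w => hstep (orderOf h / p) w.1 w.2
  let gS : S → S := fun w => ⟨f w.1, hfS w⟩
  have hgS : ∀ (i : ℕ) (w : S), (gS^[i] w).1 = f^[i] w.1 := by
    intro i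
    induction i with
    | zero => intro w; rfl
    | succ i ih =>
      intro w
      rw [Function.iterate_succ_apply', Function.iterate_succ_apply', ← ih]
  have h1 : p ∣ Fintype.card S := by
    apply dvd_of_no_fixed gS
    · intro w
      apply Subtype.ext
      rw [hgS, hfp]
    · intro w hw
      have hw' : α h₀ w.1 = w.1 := congrArg Subtype.val hw
      rcases hfpf _ _ hw' with h' | h'
      · exact hh₀ne h'
      · apply hzC
        have h2 := w.2
        rw [h', mul_one] at h2
        simpa using h2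
  have h2 : Fintype.card S = Nat.card C := by
    rw [← Nat.card_eq_fintype_card]
    apply Nat.card_congr
    exact
      { toFun := fun w => ⟨z⁻¹ * w.1, w.2⟩
        invFun := fun c => ⟨z * c.1, by simp⟩
        left_inv := fun w => Subtype.ext (by simp)
        right_inv := fun c => Subtype.ext (by simp) }
  have h3 : Fintype.card Ω ≡ 1 [MOD p] := by
    apply modEq_of_unique_fixed f hfp 1
    · exact map_one (α h₀)
    · intro w hw
      rcases hfpf _ _ hw with h' | h'
      · exact absurd h' hh₀ne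
      · exact h'
  have h4 : p ∣ Fintype.card Ω := by
    rw [← Nat.card_eq_fintype_card]
    refine dvd_trans ?_ (Subgroup.card_subgroup_dvd_card C)
    rw [← h2]
    exact h1
  have h5 : p ∣ 1 := (Nat.modEq_iff_dvd' (by
      exact Nat.one_le_iff_ne_zero.mpr Fintype.card_ne_zero)).mp h3.symm |> fun h6 => by
    have := (Nat.dvd_sub_iff_right (Nat.one_le_iff_ne_zero.mpr Fintype.card_ne_zero) h4).mp h6
    exact this
  exact hpp.one_lt.ne' (Nat.dvd_one.mp h5)

end SectFp

end Cfsg.Agent.Lib.FrobFree
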