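import Mathlib

/-! Normal bases for free group actions on reduced Artinian rings. -/

set_option autoImplicit false

namespace Cfsg.Agent.Lib.FrobFree

open scoped BigOperators

theorem field_pair {L Γ : Type*} [Field L] [Group Γ] [Fintype Γ] [DecidableEq Γ]
    [MulSemiringAction Γ L] [FaithfulSMul Γ L] :
    ∃ θ η : L, ∀ γ : Γ, ∑ g : Γ, g • (η * γ • θ) = if γ = 1 then 1 else 0 := by
  classical
  let K := FixedPoints.subfield Γ L
  haveI : IsGalois K L := IsGalois.of_fixed_field L Γ
  haveI : FiniteDimensional K L := inferInstance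
  let e : Γ ≃* (L ≃ₐ[K] L) := FixedPoints.toAlgAutMulEquiv Γ L
  let b := IsGalois.normalBasis K L
  let B := Algebra.traceForm K L
  have hnd : B.Nondegenerate := traceForm_nondegenerate K L
  let b' := LinearMap.BilinForm.dualBasis B hnd b
  refine ⟨b 1, b' 1, ?_⟩
  intro γ
  have key : ∀ w : L, ∑ g : Γ, g • w = algebraMap K L (Algebra.trace K L w) := by
    intro w
    rw [trace_eq_sum_automorphisms]
    exact Fintype.sum_equiv e.toEquiv _ _ (fun g => rfl)
  rw [key]
  have h1 : γ • b 1 = b (e γ) := (IsGalois.normalBasis_apply (e γ)).symm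
  rw [h1]
  have h2 := LinearMap.BilinForm.apply_dualBasis_left hnd b (1 : L ≃ₐ[K] L) (e γ)
  have h3 : Algebra.trace K L (b' 1 * b (e γ)) = if e γ = 1 then 1 else 0 := by
    rw [← Algebra.traceForm_apply]
    exact h2
  rw [h3]
  by_cases hγ : γ = 1
  · subst hγ
    simp
  · have : e γ ≠ 1 := fun h => hγ (by simpa using h)
    simp [hγ, this]

section Ring

variable {R H : Type*} [CommRing R] [Group H] [MulSemiringAction H R]

/-- The stabilizer of an ideal, as a set-wise condition. -/
def stabS (I : Ideal R) : Subgroup H where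
  carrier := {g | ∀ t : R, g • t ∈ I ↔ t ∈ I}
  one_mem' := by
    intro t
    simp
  mul_mem' := by
    intro a b ha hb t
    rw [mul_smul, ha, hb]
  inv_mem' := by
    intro a ha t
    have := ha (a⁻¹ • t)
    rw [smul_inv_smul] at this
    exact this.symm

theorem mem_stabS {I : Ideal R} {g : H} : g ∈ stabS (H := H) I ↔ ∀ t : R, g • t ∈ I ↔ t ∈ I := Iff.rfl

/-- The map induced on the quotient by an element of the stabilizer. -/
noncomputable def actHom (I : Ideal R) (g : stabS (H := H) I) : R ⧸ I →+* R ⧸ I :=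
  Ideal.Quotient.lift I ((Ideal.Quotient.mk I).comp (MulSemiringAction.toRingHom H R (g : H)))
    (fun t ht => Ideal.Quotient.eq_zero_iff_mem.mpr ((mem_stabS.mp g.2 t).mpr ht))

theorem actHom_mk (I : Ideal R) (g : stabS (H := H) I) (t : R) :
    actHom I g (Ideal.Quotient.mk I t) = Ideal.Quotient.mk I ((g : H) • t) :=
  Ideal.Quotient.lift_mk _ _ _

/-- The action of the stabilizer on the quotient. -/
noncomputable def quotAct (I : Ideal R) : MulSemiringAction (stabS (H := H) I) (R ⧸ I) where
  smul g q := actHom I g q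
  one_smul q := by
    obtain ⟨t, rfl⟩ := Ideal.Quotient.mk_surjective q
    change actHom I 1 _ = _
    rw [actHom_mk]
    simp
  mul_smul a b q := by
    obtain ⟨t, rfl⟩ := Ideal.Quotient.mk_surjective q
    change actHom I (a * b) _ = actHom I a (actHom I b _)
    rw [actHom_mk, actHom_mk, actHom_mk]
    simp [mul_smul]
  smul_zero g := map_zero (actHom I g)
  smul_add g a b := map_add (actHom I g) a b
  smul_one g := map_one (actHom I g)
  smul_mul g a b := map_mul (actHom I g) a b

variable [Fintype H] [DecidableEq H]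

open scoped Classical in
theorem stab_pair (m : Ideal R) [hm : m.IsMaximal]
    (hfree : ∀ h : H, h ≠ 1 → (∀ t, h • t ∈ m ↔ t ∈ m) → ∃ t, h • t - t ∉ m) :
    ∃ θ η : R, ∀ γ ∈ stabS (H := H) m,
      (∑ g ∈ Finset.univ.filter (· ∈ stabS (H := H) m), g • (η * (γ • θ)))
        - (if γ = 1 then 1 else 0) ∈ m := by
  classical
  letI : Field (R ⧸ m) := Ideal.Quotient.field m
  letI act : MulSemiringAction (stabS (H := H) m) (R ⧸ m) := quotAct m
  have hact : ∀ (g : stabS (H := H) m) (t : R),
      g • (Ideal.Quotient.mk m t) = Ideal.Quotient.mk m ((g : H) • t) := by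
    intro g t
    exact actHom_mk m g t
  haveI : FaithfulSMul (stabS (H := H) m) (R ⧸ m) := by
    refine ⟨fun {a b} hab => ?_⟩
    by_contra hne
    have hne' : (a : H)⁻¹ * b ≠ 1 := by
      intro h
      apply hne
      apply Subtype.ext
      exact (inv_mul_eq_one.mp h)
    have hst : ((a : H)⁻¹ * b) ∈ stabS (H := H) m := Subgroup.mul_mem _ (Subgroup.inv_mem _ a.2) b.2
    obtain ⟨t, ht⟩ := hfree _ hne' hst
    apply ht
    have h1 := hab (Ideal.Quotient.mk m t)
    rw [hact, hact] at h1
    have h2 : (a : H) • t - (b : H) • t ∈ m := Ideal.Quotient.eq.mp h1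
    have h3 := (a.2 (t - ((a : H)⁻¹ * b) • t)).mp (by
      rw [smul_sub, smul_smul, mul_inv_cancel_left]
      exact h2)
    have : ((a : H)⁻¹ * b) • t - t = -(t - ((a : H)⁻¹ * b) • t) := by ring
    rw [this]
    exact m.neg_mem h3
  haveI := Fintype.ofFinite (stabS (H := H) m)
  obtain ⟨θ', η', h⟩ := field_pair (L := R ⧸ m) (Γ := stabS (H := H) m)
  obtain ⟨θ, rfl⟩ := Ideal.Quotient.mk_surjective θ'
  obtain ⟨η, rfl⟩ := Ideal.Quotient.mk_surjective η'
  refine ⟨θ, η, ?_⟩
  intro γ hγ
  have h0 := h ⟨γ, hγ⟩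
  rw [← Ideal.Quotient.eq_zero_iff_mem, map_sub, map_sum, sub_eq_zero]
  have hs : ∑ g ∈ Finset.univ.filter (· ∈ stabS (H := H) m),
      (Ideal.Quotient.mk m) (g • (η * (γ • θ)))
      = ∑ g : stabS (H := H) m, (Ideal.Quotient.mk m) ((g : H) • (η * (γ • θ))) :=
    Finset.sum_subtype _ (by simp) _
  rw [hs]
  have hs2 : ∀ g : stabS (H := H) m, (Ideal.Quotient.mk m) ((g : H) • (η * (γ • θ)))
      = g • ((Ideal.Quotient.mk m η) * ((⟨γ, hγ⟩ : stabS (H := H) m) • (Ideal.Quotient.mk m θ))) := by
    intro g
    rw [hact, ← map_mul, hact]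
  rw [Finset.sum_congr rfl (fun g _ => hs2 g), h0]
  by_cases hg : γ = 1
  · subst hg
    have : (⟨1, hγ⟩ : stabS (H := H) m) = 1 := rfl
    simp [this]
  · have : (⟨γ, hγ⟩ : stabS (H := H) m) ≠ 1 := fun h => hg (congrArg Subtype.val h)
    simp [this, hg]

theorem ring_pair [IsArtinianRing R] [IsReduced R]
    (hfree : ∀ m : Ideal R, m.IsMaximal → ∀ h : H, h ≠ 1 →
      (∀ t, h • t ∈ m ↔ t ∈ m) → ∃ t, h • t - t ∉ m) :
    ∃ x y : R, ∀ h : H, ∑ g : H, g • (y * (h • x)) = if h = 1 then 1 else 0 := by
  classical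
  have hsurj : ∀ g : H, Function.Surjective (MulSemiringAction.toRingHom H R g) := by
    intro g t
    exact ⟨g⁻¹ • t, smul_inv_smul g t⟩
  let cc : H → MaximalSpectrum R → MaximalSpectrum R := fun g m =>
    ⟨m.asIdeal.comap (MulSemiringAction.toRingHom H R g),
      by
        haveI := m.isMaximal
        exact Ideal.comap_isMaximal_of_surjective _ (hsurj g)⟩
  have mem_cc : ∀ (g : H) (m : MaximalSpectrum R) (t : R),
      t ∈ (cc g m).asIdeal ↔ g • t ∈ m.asIdeal := fun _ _ _ => Iff.rfl
  have cc_ext : ∀ {m m' : MaximalSpectrum R}, (∀ t, t ∈ m.asIdeal ↔ t ∈ m'.asIdeal) → m = m' := by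
    intro m m' h
    exact MaximalSpectrum.ext (Ideal.ext h)
  have cc_one : ∀ m, cc 1 m = m := by
    intro m
    apply cc_ext
    intro t
    rw [mem_cc, one_smul]
  have cc_mul : ∀ a b m, cc (a * b) m = cc b (cc a m) := by
    intro a b m
    apply cc_ext
    intro t
    rw [mem_cc, mem_cc, mem_cc, mul_smul]
  let s : Setoid (MaximalSpectrum R) :=
    { r := fun m m' => ∃ g, m' = cc g m
      iseqv :=
        { refl := fun m => ⟨1, (cc_one m).symm⟩
          symm := by
            rintro m m' ⟨g, rfl⟩
            exact ⟨g⁻¹, by rw [← cc_mul, mul_inv_cancel, cc_one]⟩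
          trans := by
            rintro m m' m'' ⟨g, rfl⟩ ⟨g', rfl⟩
            exact ⟨g * g', by rw [cc_mul]⟩ } }
  let rep : MaximalSpectrum R → MaximalSpectrum R := fun m => (Quotient.mk s m).out
  have rep_rel : ∀ m, s.r (rep m) m := fun m => Quotient.mk_out (s := s) m
  have rep_eq : ∀ {m m'}, s.r m m' → rep m = rep m' := by
    intro m m' h
    have : Quotient.mk s m = Quotient.mk s m' := Quotient.sound h
    simp only [rep, this]
  have rep_rep : ∀ m, rep (rep m) = rep m := fun m => rep_eq (rep_rel m)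
  have uniq : ∀ {r r'}, rep r = r → rep r' = r' → s.r r r' → r = r' := by
    intro r r' h h' hs
    rw [← h, ← h']
    exact rep_eq hs
  have nonrep : ∀ {r : MaximalSpectrum R} (g : H), rep r = r → cc g r ≠ r → rep (cc g r) ≠ cc g r := by
    intro r g hr hne hrep
    exact hne (uniq hrep hr (s.symm ⟨g, rfl⟩))
  have hst : ∀ m : MaximalSpectrum R, ∃ θ η : R, ∀ γ ∈ stabS (H := H) m.asIdeal,
      (∑ g ∈ Finset.univ.filter (· ∈ stabS (H := H) m.asIdeal), g • (η * (γ • θ)))
        - (if γ = 1 then 1 else 0) ∈ m.asIdeal := by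
    intro m
    haveI := m.isMaximal
    exact stab_pair m.asIdeal (hfree m.asIdeal m.isMaximal)
  choose θ η hθ using hst
  have crt : ∀ f : MaximalSpectrum R → R, ∃ x : R, ∀ m, x - f m ∈ m.asIdeal := by
    intro f
    refine ⟨(IsArtinianRing.equivPi R).symm (fun m => Ideal.Quotient.mk _ (f m)), ?_⟩
    intro m
    have := congrFun ((IsArtinianRing.equivPi R).apply_symm_apply
      (fun m => Ideal.Quotient.mk m.asIdeal (f m))) m
    rw [IsArtinianRing.equivPi_apply] at this
    exact Ideal.Quotient.eq.mp this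
  obtain ⟨x, hx⟩ := crt (fun m => if rep m = m then θ m else 0)
  obtain ⟨y, hy⟩ := crt (fun m => if rep m = m then η m else 0)
  have hzero : ∀ d : R, (∀ m : MaximalSpectrum R, d ∈ m.asIdeal) → d = 0 := by
    intro d hd
    apply (IsArtinianRing.equivPi R).injective
    rw [map_zero]
    funext m
    rw [IsArtinianRing.equivPi_apply]
    exact Ideal.Quotient.eq_zero_iff_mem.mpr (hd m)
  refine ⟨x, y, ?_⟩
  intro h
  rw [← sub_eq_zero]
  apply hzero
  set d : R := ∑ g : H, g • (y * (h • x)) - (if h = 1 then 1 else 0) with hd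
  have hinv : ∀ g₀ : H, g₀ • d = d := by
    intro g₀
    rw [hd, smul_sub, Finset.smul_sum]
    congr 1
    · simp_rw [smul_smul]
      exact Fintype.sum_equiv (Equiv.mulLeft g₀) _ _ (fun _ => rfl)
    · split_ifs
      · exact smul_one g₀
      · exact smul_zero g₀
  have hrep : ∀ r : MaximalSpectrum R, rep r = r → d ∈ r.asIdeal := by
    intro r hr
    set I := r.asIdeal with hI
    set w := y * (h • x) with hw
    have hnot : ∀ g : H, g ∉ stabS (H := H) I → cc g r ≠ r := by
      intro g hg hc
      apply hg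
      intro t
      rw [← mem_cc, hc]
    have hy0 : ∀ g : H, g ∉ stabS (H := H) I → g • y ∈ I := by
      intro g hg
      have := hy (cc g r)
      simp only [if_neg (nonrep g hr (hnot g hg)), sub_zero] at this
      exact this
    have hx0 : ∀ g : H, g ∉ stabS (H := H) I → g • x ∈ I := by
      intro g hg
      have := hx (cc g r)
      simp only [if_neg (nonrep g hr (hnot g hg)), sub_zero] at this
      exact this
    have hout : ∑ g ∈ Finset.univ.filter (fun g => ¬ g ∈ stabS (H := H) I), g • w ∈ I := by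
      apply Ideal.sum_mem
      intro g hg
      have hg' : g ∉ stabS (H := H) I := (Finset.mem_filter.mp hg).2
      rw [hw, smul_mul']
      exact I.mul_mem_right _ (hy0 g hg')
    rw [hd, ← Finset.sum_filter_add_sum_filter_not Finset.univ (· ∈ stabS (H := H) I)]
    by_cases hh : h ∈ stabS (H := H) I
    · have h1 := hθ r h hh
      have hyr : y - η r ∈ I := by
        have := hy r
        simp only [if_pos hr] at this
        exact this
      have hxr : x - θ r ∈ I := by
        have := hx r
        simp only [if_pos hr] at this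
        exact this
      have hdiff : w - η r * (h • θ r) ∈ I := by
        have e1 : w - η r * (h • θ r)
            = (y - η r) * (h • x) + η r * (h • (x - θ r)) := by
          rw [hw, smul_sub]
          ring
        rw [e1]
        exact I.add_mem (I.mul_mem_right _ hyr) (I.mul_mem_left _ ((hh _).mpr hxr))
      have hin : (∑ g ∈ Finset.univ.filter (· ∈ stabS (H := H) I), g • w)
          - ∑ g ∈ Finset.univ.filter (· ∈ stabS (H := H) I), g • (η r * (h • θ r)) ∈ I := by
        rw [← Finset.sum_sub_distrib]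
        apply Ideal.sum_mem
        intro g hg
        have hg' : g ∈ stabS (H := H) I := (Finset.mem_filter.mp hg).2
        rw [← smul_sub]
        exact (hg' _).mpr hdiff
      have e2 : (∑ g ∈ Finset.univ.filter (· ∈ stabS (H := H) I), g • w)
            + ∑ g ∈ Finset.univ.filter (fun g => ¬ g ∈ stabS (H := H) I), g • w
            - (if h = 1 then 1 else 0)
          = ((∑ g ∈ Finset.univ.filter (· ∈ stabS (H := H) I), g • w)
              - ∑ g ∈ Finset.univ.filter (· ∈ stabS (H := H) I), g • (η r * (h • θ r)))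
            + ((∑ g ∈ Finset.univ.filter (· ∈ stabS (H := H) I), g • (η r * (h • θ r)))
              - (if h = 1 then 1 else 0))
            + ∑ g ∈ Finset.univ.filter (fun g => ¬ g ∈ stabS (H := H) I), g • w := by
        ring
      rw [e2]
      exact I.add_mem (I.add_mem hin h1) hout
    · have hne : h ≠ 1 := by
        rintro rfl
        exact hh (Subgroup.one_mem _)
      rw [if_neg hne, sub_zero]
      refine I.add_mem ?_ hout
      apply Ideal.sum_mem
      intro g hg
      have hg' : g ∈ stabS (H := H) I := (Finset.mem_filter.mp hg).2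
      apply (hg' _).mpr
      rw [hw]
      exact I.mul_mem_left _ (hx0 h hh)
  intro m
  obtain ⟨g, hg⟩ := rep_rel m
  have h1 := hrep (rep m) (rep_rep m)
  rw [hg, mem_cc, hinv]
  exact h1

theorem pair_dual {x y : R}
    (h : ∀ γ : H, ∑ g : H, g • (y * (γ • x)) = if γ = 1 then 1 else 0) (γ : H) :
    ∑ a : H, a • x * (γ * a) • y = if γ = 1 then 1 else 0 := by
  classical
  let P : Matrix H H R := Matrix.of fun a g => (g * a) • y
  let Q : Matrix H H R := Matrix.of fun g b => (g * b) • x
  have hPQ : P * Q = 1 := by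
    ext a b
    rw [Matrix.mul_apply]
    simp only [P, Q, Matrix.of_apply]
    have e : ∑ g : H, (g * a) • y * (g * b) • x = ∑ g : H, g • (y * ((a⁻¹ * b) • x)) := by
      refine Fintype.sum_equiv (Equiv.mulRight a) _ _ (fun g => ?_)
      simp only [Equiv.coe_mulRight]
      rw [smul_mul', smul_smul]
      congr 2
      group
    rw [e, h, Matrix.one_apply]
    by_cases hab : a = b
    · subst hab
      simp
    · have : a⁻¹ * b ≠ 1 := fun h' => hab (inv_mul_eq_one.mp h')
      simp [hab, this]
  have hQP : Q * P = 1 := mul_eq_one_comm.mp hPQ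
  have := congrFun (congrFun hQP 1) γ
  rw [Matrix.mul_apply, Matrix.one_apply] at this
  simp only [P, Q, Matrix.of_apply, one_mul] at this
  rw [this]
  by_cases hγ : γ = 1
  · subst hγ
    simp
  · have : (1 : H) ≠ γ := fun h' => hγ h'.symm
    simp [hγ, this]

end Ring

end Cfsg.Agent.Lib.FrobFree
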