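import Cfsg.Agent.Lib.FrobFree.Ops

/-! A commuting group of operators with a fixed-point-free action gives freeness. -/

set_option autoImplicit false

namespace Cfsg.Agent.Lib.FrobFree

open scoped BigOperators
open Module

theorem key_free {k Y H : Type*} [Field k] [AddCommGroup Y] [Module k Y] [FiniteDimensional k Y]
    [Group H] [Fintype H] [DecidableEq H]
    (σ : H →* (Module.End k Y)ˣ) (Z : Subgroup (Module.End k Y)ˣ) [Finite Z]
    (hcomm : ∀ a ∈ Z, ∀ b ∈ Z, a * b = b * a)
    (hcard : ((Nat.card Z : ℕ) : k) ≠ 0)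
    (hnorm : ∀ h, ∀ ζ ∈ Z, σ h * ζ * (σ h)⁻¹ ∈ Z)
    (hfp : ∀ h, h ≠ 1 → ∀ ξ ∈ Z, σ h * ξ * (σ h)⁻¹ = ξ → ξ = 1)
    (hfix : ∀ v : Y, (∀ ζ ∈ Z, ((ζ : (Module.End k Y)ˣ) : Module.End k Y) v = v) → v = 0) :
    ∃ W : Submodule k Y, (⨆ h : H, W.map ((σ h : (Module.End k Y)ˣ) : Module.End k Y)) = ⊤ ∧
      Fintype.card H * finrank k W = finrank k Y := by
  classical
  haveI : Fintype Z := Fintype.ofFinite Z
  let S : Set (Module.End k Y) := (fun ζ : (Module.End k Y)ˣ => (ζ : Module.End k Y)) '' (Z : Set _)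
  have hS : ∀ a ∈ S, ∀ b ∈ S, a * b = b * a := by
    rintro _ ⟨a, ha, rfl⟩ _ ⟨b, hb, rfl⟩
    exact congrArg Units.val (hcomm a ha b hb)
  let R₀ : Subalgebra k (Module.End k Y) := Algebra.adjoin k S
  letI instR : CommRing R₀ := Algebra.adjoinCommRingOfComm k hS
  have hmemS : ∀ ζ ∈ Z, ((ζ : (Module.End k Y)ˣ) : Module.End k Y) ∈ R₀ := fun ζ hζ =>
    Algebra.subset_adjoin ⟨ζ, hζ, rfl⟩
  have hconj : ∀ (h : H) (a : Module.End k Y), a ∈ R₀ →
      ((σ h : (Module.End k Y)ˣ) : Module.End k Y) * a * (((σ h)⁻¹ : (Module.End k Y)ˣ) : Module.End k Y) ∈ R₀ := by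
    intro h a ha
    induction ha using Algebra.adjoin_induction with
    | mem x hx =>
      obtain ⟨ζ, hζ, rfl⟩ := hx
      have := hmemS _ (hnorm h ζ hζ)
      simpa using this
    | algebraMap r =>
      have : ((σ h : (Module.End k Y)ˣ) : Module.End k Y) * (algebraMap k (Module.End k Y) r)
          * (((σ h)⁻¹ : (Module.End k Y)ˣ) : Module.End k Y) = algebraMap k (Module.End k Y) r := by
        rw [← Algebra.commutes, mul_assoc, Units.mul_inv, mul_one]
      rw [this]
      exact Subalgebra.algebraMap_mem _ r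
    | add x y _ _ hx hy =>
      rw [mul_add, add_mul]
      exact add_mem hx hy
    | mul x y _ _ hx hy =>
      have : ((σ h : (Module.End k Y)ˣ) : Module.End k Y) * (x * y)
          * (((σ h)⁻¹ : (Module.End k Y)ˣ) : Module.End k Y)
          = (((σ h : (Module.End k Y)ˣ) : Module.End k Y) * x
            * (((σ h)⁻¹ : (Module.End k Y)ˣ) : Module.End k Y))
            * (((σ h : (Module.End k Y)ˣ) : Module.End k Y) * y
            * (((σ h)⁻¹ : (Module.End k Y)ˣ) : Module.End k Y)) := by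
        simp only [mul_assoc, Units.inv_mul_cancel_left]
      rw [this]
      exact mul_mem hx hy
  letI act : MulSemiringAction H R₀ :=
    { smul := fun h a => ⟨((σ h : (Module.End k Y)ˣ) : Module.End k Y) * a *
          (((σ h)⁻¹ : (Module.End k Y)ˣ) : Module.End k Y), hconj h a a.2⟩
      one_smul := fun a => Subtype.ext (show ((σ 1 : (Module.End k Y)ˣ) : Module.End k Y) * (a : Module.End k Y) *
          (((σ 1)⁻¹ : (Module.End k Y)ˣ) : Module.End k Y) = a by simp)
      mul_smul := fun a b x => Subtype.ext (show ((σ (a * b) : (Module.End k Y)ˣ) : Module.End k Y) * (x : Module.End k Y) *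
          (((σ (a * b))⁻¹ : (Module.End k Y)ˣ) : Module.End k Y)
          = ((σ a : (Module.End k Y)ˣ) : Module.End k Y) * (((σ b : (Module.End k Y)ˣ) : Module.End k Y) * (x : Module.End k Y) *
          (((σ b)⁻¹ : (Module.End k Y)ˣ) : Module.End k Y)) * (((σ a)⁻¹ : (Module.End k Y)ˣ) : Module.End k Y) by
            simp [mul_assoc])
      smul_zero := fun a => Subtype.ext (show ((σ a : (Module.End k Y)ˣ) : Module.End k Y) * (0 : Module.End k Y) *
          (((σ a)⁻¹ : (Module.End k Y)ˣ) : Module.End k Y) = 0 by simp)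
      smul_add := fun a x y => Subtype.ext (show ((σ a : (Module.End k Y)ˣ) : Module.End k Y) * ((x : Module.End k Y) + y) *
          (((σ a)⁻¹ : (Module.End k Y)ˣ) : Module.End k Y)
          = ((σ a : (Module.End k Y)ˣ) : Module.End k Y) * x * (((σ a)⁻¹ : (Module.End k Y)ˣ) : Module.End k Y)
            + ((σ a : (Module.End k Y)ˣ) : Module.End k Y) * y * (((σ a)⁻¹ : (Module.End k Y)ˣ) : Module.End k Y) by
            simp [mul_add, add_mul])
      smul_one := fun a => Subtype.ext (show ((σ a : (Module.End k Y)ˣ) : Module.End k Y) * (1 : Module.End k Y) *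
          (((σ a)⁻¹ : (Module.End k Y)ˣ) : Module.End k Y) = 1 by simp)
      smul_mul := fun a x y => Subtype.ext (show ((σ a : (Module.End k Y)ˣ) : Module.End k Y) * ((x : Module.End k Y) * y) *
          (((σ a)⁻¹ : (Module.End k Y)ˣ) : Module.End k Y)
          = (((σ a : (Module.End k Y)ˣ) : Module.End k Y) * x * (((σ a)⁻¹ : (Module.End k Y)ˣ) : Module.End k Y))
            * (((σ a : (Module.End k Y)ˣ) : Module.End k Y) * y * (((σ a)⁻¹ : (Module.End k Y)ˣ) : Module.End k Y)) by
            simp only [mul_assoc, Units.inv_mul_cancel_left]) }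
  have hsmul : ∀ (h : H) (a : R₀), ((h • a : R₀) : Module.End k Y)
      = ((σ h : (Module.End k Y)ˣ) : Module.End k Y) * a *
        (((σ h)⁻¹ : (Module.End k Y)ˣ) : Module.End k Y) := fun _ _ => rfl
  let ψ : R₀ →+* Module.End k Y :=
    { toFun := Subtype.val
      map_one' := rfl
      map_mul' := fun _ _ => rfl
      map_zero' := rfl
      map_add' := fun _ _ => rfl }
  let σ' : H →* Module.End k Y := (Units.coeHom _).comp σ
  have hσψ : ∀ h r, σ' h * ψ r = ψ (h • r) * σ' h := by
    intro h r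
    change ((σ h : (Module.End k Y)ˣ) : Module.End k Y) * r
      = ((h • r : R₀) : Module.End k Y) * ((σ h : (Module.End k Y)ˣ) : Module.End k Y)
    rw [hsmul, mul_assoc, Units.inv_mul, mul_one]
  haveI hfin : Module.Finite k R₀ := inferInstance
  haveI hart : IsArtinianRing R₀ := IsArtinianRing.of_finite k R₀
  have hred : IsReduced R₀ := by
    rw [isReduced_iff_pow_one_lt 2 (by norm_num)]
    intro t ht2
    set T : Module.End k Y := (t : Module.End k Y) with hTdef
    have hT2 : T * T = 0 := by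
      have := congrArg (Subtype.val) ht2
      rw [pow_two] at this
      exact this
    have hTZ : ∀ ζ ∈ Z, ((ζ : (Module.End k Y)ˣ) : Module.End k Y) * T
        = T * ((ζ : (Module.End k Y)ˣ) : Module.End k Y) := by
      intro ζ hζ
      have : (⟨_, hmemS ζ hζ⟩ : R₀) * t = t * ⟨_, hmemS ζ hζ⟩ := mul_comm _ _
      exact congrArg Subtype.val this
    let K : Submodule k Y := LinearMap.ker T
    obtain ⟨g₀, hg₀⟩ := LinearMap.exists_leftInverse_of_injective K.subtype (Submodule.ker_subtype K)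
    let π₀ : Module.End k Y := K.subtype ∘ₗ g₀
    have hπ₀K : ∀ v, π₀ v ∈ K := fun v => (g₀ v).2
    have hπ₀fix : ∀ v ∈ K, π₀ v = v := by
      intro v hv
      have := congrArg (fun f : K →ₗ[k] K => ((f ⟨v, hv⟩ : K) : Y)) hg₀
      change ((g₀ v : K) : Y) = v
      simpa using this
    let c : k := ((Nat.card Z : ℕ) : k)⁻¹
    let π₁ : Module.End k Y := c • ∑ ζ : Z,
      (((ζ : (Module.End k Y)ˣ) : (Module.End k Y)ˣ) : Module.End k Y) * π₀ *
        ((((ζ : (Module.End k Y)ˣ))⁻¹ : (Module.End k Y)ˣ) : Module.End k Y)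
    have hπ₁Z : ∀ u ∈ Z, ((u : (Module.End k Y)ˣ) : Module.End k Y) * π₁
        = π₁ * ((u : (Module.End k Y)ˣ) : Module.End k Y) := by
      intro u hu
      simp only [π₁]
      rw [mul_smul_comm, smul_mul_assoc, Finset.mul_sum, Finset.sum_mul]
      congr 1
      refine Fintype.sum_equiv (Equiv.mulLeft (⟨u, hu⟩ : Z)) _ _ (fun ζ => ?_)
      simp only [Equiv.coe_mulLeft, Subgroup.coe_mul, Units.val_mul, mul_inv_rev]
      simp only [mul_assoc, Units.inv_mul_cancel_left, Units.inv_mul, mul_one]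
    have hπ₁R : ∀ a ∈ R₀, a * π₁ = π₁ * a := by
      intro a ha
      induction ha using Algebra.adjoin_induction with
      | mem x hx =>
        obtain ⟨ζ, hζ, rfl⟩ := hx
        exact hπ₁Z ζ hζ
      | algebraMap r => exact (Algebra.commutes r π₁)
      | add x y _ _ hx hy => rw [add_mul, mul_add, hx, hy]
      | mul x y _ _ hx hy => rw [mul_assoc, hy, ← mul_assoc, hx, mul_assoc]
    have hπ₁K : ∀ v, T (π₁ v) = 0 := by
      intro v
      simp only [π₁, LinearMap.smul_apply, LinearMap.sum_apply, map_smul, map_sum]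
      apply smul_eq_zero_of_right
      apply Finset.sum_eq_zero
      intro ζ _
      have h1 := congrArg (fun f : Module.End k Y => f (π₀ (((((ζ : (Module.End k Y)ˣ))⁻¹ : (Module.End k Y)ˣ) : Module.End k Y) v))) (hTZ ζ ζ.2)
      simp only [Module.End.mul_apply] at h1 ⊢
      rw [← h1]
      have h2 : T (π₀ (((((ζ : (Module.End k Y)ˣ))⁻¹ : (Module.End k Y)ˣ) : Module.End k Y) v)) = 0 :=
        LinearMap.mem_ker.mp (hπ₀K _)
      rw [h2, map_zero]
    have hπ₁fix : ∀ v ∈ K, π₁ v = v := by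
      intro v hv
      have hterm : ∀ ζ : Z, (((ζ : (Module.End k Y)ˣ) : (Module.End k Y)ˣ) : Module.End k Y) *
          π₀ * ((((ζ : (Module.End k Y)ˣ))⁻¹ : (Module.End k Y)ˣ) : Module.End k Y) *
          1 = (((ζ : (Module.End k Y)ˣ) : (Module.End k Y)ˣ) : Module.End k Y) *
          π₀ * ((((ζ : (Module.End k Y)ˣ))⁻¹ : (Module.End k Y)ˣ) : Module.End k Y) := fun _ => mul_one _
      have hmemK : ∀ ζ : Z, ((((ζ : (Module.End k Y)ˣ))⁻¹ : (Module.End k Y)ˣ) : Module.End k Y) v ∈ K := by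
        intro ζ
        have h0 := hTZ _ (Z.inv_mem ζ.2)
        have h1 := congrArg (fun f : Module.End k Y => f v) h0
        simp only [Module.End.mul_apply] at h1
        apply LinearMap.mem_ker.mpr
        rw [← h1, LinearMap.mem_ker.mp hv, map_zero]
      have hval : ∀ ζ : Z, ((((ζ : (Module.End k Y)ˣ) : (Module.End k Y)ˣ) : Module.End k Y) *
          π₀ * ((((ζ : (Module.End k Y)ˣ))⁻¹ : (Module.End k Y)ˣ) : Module.End k Y)) v = v := by
        intro ζ
        simp only [Module.End.mul_apply]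
        rw [hπ₀fix _ (hmemK ζ)]
        rw [← Module.End.mul_apply, Units.mul_inv]
        rfl
      simp only [π₁, LinearMap.smul_apply, LinearMap.sum_apply]
      rw [Finset.sum_congr rfl (fun ζ _ => hval ζ), Finset.sum_const, Finset.card_univ,
        ← Nat.card_eq_fintype_card, ← Nat.cast_smul_eq_nsmul k, smul_smul, inv_mul_cancel₀ hcard, one_smul]
    apply Subtype.ext
    change T = 0
    ext v
    have h1 : T v ∈ K := by
      apply LinearMap.mem_ker.mpr
      have := congrArg (fun f : Module.End k Y => f v) hT2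
      simpa [Module.End.mul_apply] using this
    have h2 := hπ₁fix _ h1
    have h3 := congrArg (fun f : Module.End k Y => f v) (hπ₁R T t.2)
    simp only [Module.End.mul_apply] at h3
    rw [← h3, hπ₁K] at h2
    simpa using h2.symm
  have hfree : ∀ m : Ideal R₀, m.IsMaximal → ∀ h : H, h ≠ 1 →
      (∀ t, h • t ∈ m ↔ t ∈ m) → ∃ t, h • t - t ∉ m := by
    intro m hm h hne _
    by_contra hcon
    have hall : ∀ t : R₀, h • t - t ∈ m := by
      intro t
      by_contra ht
      exact hcon ⟨t, ht⟩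
    let uu : Z → R₀ := fun ζ => ⟨_, hmemS ζ ζ.2⟩
    let cf : Z → Z := fun ω => ⟨σ h * ω * (σ h)⁻¹ * (ω : (Module.End k Y)ˣ)⁻¹,
      Z.mul_mem (hnorm h ω ω.2) (Z.inv_mem ω.2)⟩
    have hcf_inj : Function.Injective cf := by
      intro ω ω' heq
      have h0 : σ h * (ω : (Module.End k Y)ˣ) * (σ h)⁻¹ * (ω : (Module.End k Y)ˣ)⁻¹
          = σ h * (ω' : (Module.End k Y)ˣ) * (σ h)⁻¹ * (ω' : (Module.End k Y)ˣ)⁻¹ :=
        congrArg Subtype.val heq
      have h1 : (ω' : (Module.End k Y)ˣ)⁻¹ * ω ∈ Z := Z.mul_mem (Z.inv_mem ω'.2) ω.2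
      have h2 : σ h * ((ω' : (Module.End k Y)ˣ)⁻¹ * ω) * (σ h)⁻¹ = (ω' : (Module.End k Y)ˣ)⁻¹ * ω := by
        have e1 : σ h * ((ω' : (Module.End k Y)ˣ)⁻¹ * ω) * (σ h)⁻¹
            = (σ h * (ω' : (Module.End k Y)ˣ) * (σ h)⁻¹)⁻¹ * (σ h * ω * (σ h)⁻¹) := by group
        rw [e1]
        have e2 : σ h * (ω : (Module.End k Y)ˣ) * (σ h)⁻¹
            = σ h * (ω' : (Module.End k Y)ˣ) * (σ h)⁻¹ * ((ω' : (Module.End k Y)ˣ)⁻¹ * ω) := by
          have := congrArg (fun q => q * (ω : (Module.End k Y)ˣ)) h0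
          simp only [inv_mul_cancel_right] at this
          rw [this]
          group
        rw [e2]
        group
      have h3 := hfp h hne _ h1 h2
      apply Subtype.ext
      exact (inv_mul_eq_one.mp h3).symm
    have hcf_surj : Function.Surjective cf := Finite.injective_iff_surjective.mp hcf_inj
    have hu1 : ∀ ζ : Z, uu ζ - 1 ∈ m := by
      intro ζ
      obtain ⟨ω, hω⟩ := hcf_surj ζ
      have e0 : (ζ : (Module.End k Y)ˣ) * ω = σ h * ω * (σ h)⁻¹ := by
        rw [← hω]
        simp [cf]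
      have e1 : uu ζ * uu ω = h • uu ω := by
        apply Subtype.ext
        exact congrArg Units.val e0
      have e2 : uu ω * uu ω⁻¹ = 1 := by
        apply Subtype.ext
        change ((ω : (Module.End k Y)ˣ) : Module.End k Y) * (((ω⁻¹ : Z) : (Module.End k Y)ˣ) : Module.End k Y) = 1
        simp
      have e3 : uu ζ - 1 = (h • uu ω - uu ω) * uu ω⁻¹ := by
        rw [← e1, sub_mul, mul_assoc, e2, mul_one]
      rw [e3]
      exact m.mul_mem_right _ (hall _)
    have hsum0 : ∑ ζ : Z, uu ζ = 0 := by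
      apply Subtype.ext
      change ((∑ ζ : Z, uu ζ : R₀) : Module.End k Y) = 0
      have e : ((∑ ζ : Z, uu ζ : R₀) : Module.End k Y)
          = ∑ ζ : Z, (((ζ : (Module.End k Y)ˣ) : (Module.End k Y)ˣ) : Module.End k Y) :=
        map_sum ψ _ _
      rw [e]
      ext v
      rw [LinearMap.sum_apply]
      apply hfix
      intro η hη
      rw [map_sum]
      refine Fintype.sum_equiv (Equiv.mulLeft (⟨η, hη⟩ : Z)) _ _ (fun ζ => ?_)
      rfl
    have hcardm : ((Nat.card Z : ℕ) : R₀) ∈ m := by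
      have e : ∑ ζ : Z, (uu ζ - 1) = - ((Nat.card Z : ℕ) : R₀) := by
        rw [Finset.sum_sub_distrib, hsum0, zero_sub, Finset.sum_const, Finset.card_univ,
          ← Nat.card_eq_fintype_card, nsmul_one]
      have := m.neg_mem (Ideal.sum_mem m (fun ζ _ => hu1 ζ) : ∑ ζ : Z, (uu ζ - 1) ∈ m)
      rw [e, neg_neg] at this
      exact this
    apply hm.ne_top
    rw [Ideal.eq_top_iff_one]
    have e1 : (1 : R₀) = (⟨algebraMap k _ ((Nat.card Z : ℕ) : k)⁻¹, Subalgebra.algebraMap_mem _ _⟩ : R₀)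
        * ((Nat.card Z : ℕ) : R₀) := by
      apply Subtype.ext
      change (1 : Module.End k Y) = algebraMap k _ ((Nat.card Z : ℕ) : k)⁻¹ * ψ ((Nat.card Z : ℕ) : R₀)
      rw [map_natCast, ← map_natCast (algebraMap k (Module.End k Y)), ← map_mul, inv_mul_cancel₀ hcard, map_one]
    rw [e1]
    exact m.mul_mem_left _ hcardm
  obtain ⟨x, y, h1⟩ := ring_pair hfree
  have h2 := pair_dual (R := R₀) h1
  exact free_of_pair σ' ψ hσψ x y h1 h2

end Cfsg.Agent.Lib.FrobFree
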