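import Cfsg.Agent.Lib.FrobFree.Chain

/-! Freeness for a nilpotent group with a fixed-point-free action. -/

set_option autoImplicit false

namespace Cfsg.Agent.Lib.FrobFree

open scoped BigOperators
open Module

section Rel

variable {Ω : Type*} [Group Ω]

/-- The relative centre: the preimage of the centre of `Ω ⧸ N`. -/
def relC (N : Subgroup Ω) (hN : N.Normal) : Subgroup Ω where
  carrier := {a | ∀ e, a * e * a⁻¹ * e⁻¹ ∈ N}
  one_mem' := by
    intro e
    simpa using N.one_mem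
  mul_mem' := by
    intro a b ha hb e
    have e1 : (a * b) * e * (a * b)⁻¹ * e⁻¹ = a * (b * e * b⁻¹ * e⁻¹) * a⁻¹ * (a * e * a⁻¹ * e⁻¹) := by
      group
    rw [e1]
    exact N.mul_mem (hN.conj_mem _ (hb e) a) (ha e)
  inv_mem' := by
    intro a ha e
    have e1 : a⁻¹ * e * a⁻¹⁻¹ * e⁻¹ = a⁻¹ * (a * e * a⁻¹ * e⁻¹)⁻¹ * a⁻¹⁻¹ := by
      group
    rw [e1]
    exact hN.conj_mem _ (N.inv_mem (ha e)) a⁻¹

theorem mem_relC {N : Subgroup Ω} {hN : N.Normal} {a : Ω} :
    a ∈ relC N hN ↔ ∀ e, a * e * a⁻¹ * e⁻¹ ∈ N := Iff.rfl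

theorem le_relC (N : Subgroup Ω) (hN : N.Normal) : N ≤ relC N hN := by
  intro n hn e
  have e1 : n * e * n⁻¹ * e⁻¹ = n * (e * n⁻¹ * e⁻¹) := by group
  rw [e1]
  exact N.mul_mem hn (hN.conj_mem _ (N.inv_mem hn) e)

theorem relC_normal (N : Subgroup Ω) (hN : N.Normal) : (relC N hN).Normal := by
  constructor
  intro a ha g e
  have e1 : (g * a * g⁻¹) * e * (g * a * g⁻¹)⁻¹ * e⁻¹
      = g * (a * (g⁻¹ * e * g) * a⁻¹ * (g⁻¹ * e * g)⁻¹) * g⁻¹ := by
    group
  rw [e1]
  exact hN.conj_mem _ (ha _) g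

theorem relC_map (N : Subgroup Ω) (hN : N.Normal) (φ : MulAut Ω) (hφ : ∀ n ∈ N, φ n ∈ N) {a : Ω}
    (ha : a ∈ relC N hN) : φ a ∈ relC N hN := by
  intro e
  have e1 : φ a * e * (φ a)⁻¹ * e⁻¹
      = φ (a * (φ.symm e) * a⁻¹ * (φ.symm e)⁻¹) := by
    simp
  rw [e1]
  exact hφ _ (ha _)

theorem relC_not_le [hnil : Group.IsNilpotent Ω] (N : Subgroup Ω) (hN : N.Normal) (hne : N ≠ ⊤) :
    ¬ relC N hN ≤ N := by
  intro hle
  obtain ⟨n, hn⟩ := Subgroup.nilpotent_iff_lowerCentralSeries.mp hnil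
  have key : ∀ j, j ≤ n → (⊤ : Subgroup Ω).lowerCentralSeries (n - j) ≤ N := by
    intro j
    induction j with
    | zero =>
      intro _
      simp [hn]
    | succ j ih =>
      intro hj
      have ih' := ih (by omega)
      have e : n - j = (n - (j + 1)) + 1 := by omega
      rw [e] at ih'
      intro a ha
      apply hle
      intro g
      apply ih'
      exact Subgroup.commutator_mem_commutator ha (Subgroup.mem_top g)
  have := key n le_rfl
  rw [Nat.sub_self] at this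
  apply hne
  rw [eq_top_iff]
  intro x _
  apply this
  exact Subgroup.mem_top x

end Rel

variable {k V Ω H : Type*} [Field k] [AddCommGroup V] [Module k V] [FiniteDimensional k V]
  [Group Ω] [Finite Ω] [Group H] [Fintype H]

theorem chain_free (ρ : Ω →* Module.End k V) (σ : H →* (Module.End k V)ˣ) (α : H →* MulAut Ω)
    (hc : ∀ h e, ((σ h : (Module.End k V)ˣ) : Module.End k V) * ρ e *
      (((σ h)⁻¹ : (Module.End k V)ˣ) : Module.End k V) = ρ (α h e))
    (hfpf : ∀ h e, α h e = e → h = 1 ∨ e = 1)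
    [hnil : Group.IsNilpotent Ω] (hcard : ((Nat.card Ω : ℕ) : k) ≠ 0)
    (h0 : ∀ v : V, (∀ e, ρ e v = v) → v = 0)
    (N : Subgroup Ω) (hN : N.Normal) (hα : ∀ h, ∀ n ∈ N, α h n ∈ N) :
    FreeOn σ (fixS ρ N) := by
  classical
  revert hN hα
  refine (wellFounded_gt (α := Subgroup Ω)).induction
    (C := fun N => N.Normal → (∀ h, ∀ n ∈ N, α h n ∈ N) → FreeOn σ (fixS ρ N)) N ?_
  intro N IH hN hα
  have hρσ : ∀ (h : H) (e : Ω) (v : V),
      ρ e (((σ h : (Module.End k V)ˣ) : Module.End k V) v)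
        = ((σ h : (Module.End k V)ˣ) : Module.End k V) (ρ (α h⁻¹ e) v) := by
    intro h e v
    have h1 := hc h⁻¹ e
    rw [map_inv, inv_inv] at h1
    rw [← h1]
    simp only [Module.End.mul_apply]
    have h2 : ∀ u : V, ((σ h : (Module.End k V)ˣ) : Module.End k V)
        ((((σ h)⁻¹ : (Module.End k V)ˣ) : Module.End k V) u) = u := by
      intro u
      rw [← Module.End.mul_apply, Units.mul_inv]
      rfl
    rw [h2]
  have hinv : ∀ (h : H) (u : V), ((σ h : (Module.End k V)ˣ) : Module.End k V)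
      (((σ h⁻¹ : (Module.End k V)ˣ) : Module.End k V) u) = u := by
    intro h u
    rw [map_inv, ← Module.End.mul_apply, Units.mul_inv]
    rfl
  have hinv' : ∀ (h : H) (u : V), ((σ h⁻¹ : (Module.End k V)ˣ) : Module.End k V)
      (((σ h : (Module.End k V)ˣ) : Module.End k V) u) = u := by
    intro h u
    rw [map_inv, ← Module.End.mul_apply, Units.inv_mul]
    rfl
  have hfixρ : ∀ (M : Subgroup Ω), M.Normal → ∀ (e : Ω), ∀ v ∈ fixS ρ M, ρ e v ∈ fixS ρ M := by
    intro M hM e v hv n hn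
    have h1 : ρ n (ρ e v) = ρ e (ρ (e⁻¹ * n * e) v) := by
      rw [← Module.End.mul_apply, ← Module.End.mul_apply, ← map_mul, ← map_mul]
      congr 2
      group
    rw [h1, hv]
    have := hM.conj_mem n hn e⁻¹
    simpa using this
  have hfixσ : ∀ (M : Subgroup Ω), (∀ h, ∀ n ∈ M, α h n ∈ M) → ∀ (h : H), ∀ v ∈ fixS ρ M,
      ((σ h : (Module.End k V)ˣ) : Module.End k V) v ∈ fixS ρ M := by
    intro M hM h v hv n hn
    rw [hρσ, hv _ (hM _ _ hn)]
  by_cases hTop : N = ⊤
  · subst hTop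
    have : fixS ρ (⊤ : Subgroup Ω) = ⊥ := by
      rw [eq_bot_iff]
      intro v hv
      exact h0 v (fun e => hv e (Subgroup.mem_top e))
    rw [this]
    exact ⟨⊥, by simp, by simp⟩
  set N' := relC N hN with hN'def
  have hN'n : N'.Normal := relC_normal N hN
  have hN'α : ∀ h, ∀ n ∈ N', α h n ∈ N' := fun h n hn => relC_map N hN (α h) (hα h) hn
  have hlt : N < N' := lt_of_le_of_ne (le_relC N hN) (fun e => relC_not_le N hN hTop (le_of_eq e.symm))
  have hFree' := IH N' hlt hN'n hN'α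
  haveI : Fintype N' := Fintype.ofFinite N'
  have hN'card : ((Nat.card N' : ℕ) : k) ≠ 0 := by
    intro h
    apply hcard
    obtain ⟨c, hc'⟩ := Subgroup.card_subgroup_dvd_card N'
    rw [hc', Nat.cast_mul, h, zero_mul]
  let c : k := ((Nat.card N' : ℕ) : k)⁻¹
  let P : Module.End k V := c • ∑ z : N', ρ (z : Ω)
  have hP_val : ∀ v, P v = c • ∑ z : N', ρ (z : Ω) v := by
    intro v
    simp [P, LinearMap.sum_apply]
  have hsum : ∀ f : N' → N', Function.Injective f → ∀ v,
      ∑ z : N', ρ (f z : Ω) v = ∑ z : N', ρ (z : Ω) v := by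
    intro f hf v
    exact Function.Bijective.sum_comp (Finite.injective_iff_bijective.mp hf) (fun z : N' => ρ (z : Ω) v)
  have hP_fix : ∀ v ∈ fixS ρ N', P v = v := by
    intro v hv
    rw [hP_val, Finset.sum_congr rfl (fun (z : N') _ => hv z z.2), Finset.sum_const, Finset.card_univ,
      ← Nat.card_eq_fintype_card, ← Nat.cast_smul_eq_nsmul k, smul_smul, inv_mul_cancel₀ hN'card, one_smul]
  have hP_mem : ∀ v, P v ∈ fixS ρ N' := by
    intro v n hn
    rw [hP_val, map_smul, map_sum]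
    congr 1
    have := hsum (fun z => ⟨n, hn⟩ * z) (mul_right_injective _) v
    rw [← this]
    refine Finset.sum_congr rfl (fun z _ => ?_)
    simp [Module.End.mul_apply]
  have hP_ρ : ∀ e v, P (ρ e v) = ρ e (P v) := by
    intro e v
    rw [hP_val, hP_val, map_smul, map_sum]
    congr 1
    have := hsum (fun z => ⟨e⁻¹ * z * e, by
        have := hN'n.conj_mem z z.2 e⁻¹
        simpa using this⟩) (by
        intro a b hab
        apply Subtype.ext
        have h1 : e⁻¹ * (a : Ω) * e = e⁻¹ * (b : Ω) * e := congrArg Subtype.val hab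
        simpa using h1) v
    rw [← map_sum, ← this, map_sum]
    refine Finset.sum_congr rfl (fun z _ => ?_)
    rw [← Module.End.mul_apply, ← Module.End.mul_apply, ← map_mul, ← map_mul]
    congr 2
    group
  have hP_σ : ∀ (h : H) v, P (((σ h : (Module.End k V)ˣ) : Module.End k V) v)
      = ((σ h : (Module.End k V)ˣ) : Module.End k V) (P v) := by
    intro h v
    rw [hP_val, hP_val, map_smul, map_sum]
    congr 1
    have := hsum (fun z => ⟨α h⁻¹ z, hN'α _ _ z.2⟩) (by
        intro a b hab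
        apply Subtype.ext
        have h1 : α h⁻¹ (a : Ω) = α h⁻¹ (b : Ω) := congrArg Subtype.val hab
        exact (α h⁻¹).injective h1) v
    rw [← map_sum, ← this, map_sum]
    refine Finset.sum_congr rfl (fun z _ => ?_)
    exact hρσ h _ v
  let Y : Submodule k V := fixS ρ N ⊓ LinearMap.ker P
  have hYρ : ∀ e, ∀ v ∈ Y, ρ e v ∈ Y := by
    intro e v hv
    refine ⟨hfixρ N hN e v hv.1, ?_⟩
    apply LinearMap.mem_ker.mpr
    rw [hP_ρ, LinearMap.mem_ker.mp hv.2, map_zero]
  have hYσ : ∀ (h : H), ∀ v ∈ Y, ((σ h : (Module.End k V)ˣ) : Module.End k V) v ∈ Y := by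
    intro h v hv
    refine ⟨hfixσ N hα h v hv.1, ?_⟩
    apply LinearMap.mem_ker.mpr
    rw [hP_σ, LinearMap.mem_ker.mp hv.2, map_zero]
  have hle' : fixS ρ N' ≤ fixS ρ N := fun v hv n hn => hv n (le_relC N hN hn)
  have hdec : fixS ρ N = fixS ρ N' ⊔ Y := by
    apply le_antisymm
    · intro v hv
      have h1 : v = P v + (v - P v) := by abel
      rw [h1]
      refine Submodule.add_mem_sup (hP_mem v) ⟨Submodule.sub_mem _ hv (hle' (hP_mem v)), ?_⟩
      apply LinearMap.mem_ker.mpr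
      rw [map_sub, hP_fix _ (hP_mem v), sub_self]
    · exact sup_le hle' inf_le_left
  have hdisj : fixS ρ N' ⊓ Y = ⊥ := by
    rw [eq_bot_iff]
    intro v hv
    have h1 := hP_fix v hv.1
    rw [LinearMap.mem_ker.mp hv.2.2] at h1
    exact h1.symm
  have hFreeY : FreeOn σ Y := by
    let τ₀ : N' →* Module.End k V := ρ.comp N'.subtype
    have hτ₀ : ∀ g, ∀ v ∈ Y, τ₀ g v ∈ Y := fun g v hv => hYρ g v hv
    let τ₁ : N' →* Module.End k ↥Y := resEnd τ₀ Y hτ₀
    let τ : N' →* (Module.End k ↥Y)ˣ := τ₁.toHomUnits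
    let σ₀ : H →* Module.End k V := (Units.coeHom _).comp σ
    have hσ₀ : ∀ g, ∀ v ∈ Y, σ₀ g v ∈ Y := fun g v hv => hYσ g v hv
    let σ₁ : H →* Module.End k ↥Y := resEnd σ₀ Y hσ₀
    let σY : H →* (Module.End k ↥Y)ˣ := σ₁.toHomUnits
    let Z : Subgroup (Module.End k ↥Y)ˣ := τ.range
    haveI : Finite Z := Finite.of_surjective τ.rangeRestrict τ.rangeRestrict_surjective
    have hcomm : ∀ a ∈ Z, ∀ b ∈ Z, a * b = b * a := by
      rintro _ ⟨a, rfl⟩ _ ⟨b, rfl⟩
      apply Units.ext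
      apply LinearMap.ext
      intro v
      apply Subtype.ext
      change ρ (a : Ω) (ρ (b : Ω) (v : V)) = ρ (b : Ω) (ρ (a : Ω) (v : V))
      have hv : ρ ((b : Ω) * a) (v : V) ∈ fixS ρ N := (hYρ _ _ v.2).1
      have h1 : (a : Ω) * b * (a : Ω)⁻¹ * (b : Ω)⁻¹ ∈ N := a.2 b
      have e1 : ρ (a : Ω) (ρ (b : Ω) (v : V))
          = ρ ((a : Ω) * b * (a : Ω)⁻¹ * (b : Ω)⁻¹) (ρ ((b : Ω) * a) (v : V)) := by
        rw [← Module.End.mul_apply, ← Module.End.mul_apply, ← map_mul, ← map_mul]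
        congr 2
        group
      rw [e1, hv _ h1, map_mul, Module.End.mul_apply]
    have hcardZ : ((Nat.card Z : ℕ) : k) ≠ 0 := by
      intro h
      apply hN'card
      obtain ⟨c', hc'⟩ := Subgroup.card_range_dvd τ
      rw [hc', Nat.cast_mul]
      change ((Nat.card Z : ℕ) : k) * _ = 0
      rw [h, zero_mul]
    have hconjτ : ∀ (h : H) (z : N'), σY h * τ z * (σY h)⁻¹ = τ ⟨α h z, hN'α _ _ z.2⟩ := by
      intro h z
      rw [← map_inv]
      apply Units.ext
      apply LinearMap.ext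
      intro v
      apply Subtype.ext
      change ((σ h : (Module.End k V)ˣ) : Module.End k V) (ρ (z : Ω)
        (((σ h⁻¹ : (Module.End k V)ˣ) : Module.End k V) (v : V))) = ρ (α h z) (v : V)
      rw [← hc h z, map_inv]
      rfl
    have hnorm : ∀ h, ∀ ζ ∈ Z, σY h * ζ * (σY h)⁻¹ ∈ Z := by
      rintro h _ ⟨z, rfl⟩
      rw [hconjτ]
      exact ⟨_, rfl⟩
    have hfpZ : ∀ h, h ≠ 1 → ∀ ξ ∈ Z, σY h * ξ * (σY h)⁻¹ = ξ → ξ = 1 := by
      rintro h hne _ ⟨w, rfl⟩ heq
      rw [hconjτ] at heq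
      let C : Subgroup Ω :=
        { carrier := {a | a ∈ N' ∧ ∀ v ∈ Y, ρ a v = v}
          mul_mem' := by
            intro a b ha hb
            refine ⟨N'.mul_mem ha.1 hb.1, fun v hv => ?_⟩
            rw [map_mul, Module.End.mul_apply, hb.2 v hv, ha.2 v hv]
          one_mem' := ⟨N'.one_mem, fun v _ => by simp⟩
          inv_mem' := by
            intro a ha
            refine ⟨N'.inv_mem ha.1, fun v hv => ?_⟩
            have h1 := ha.2 v hv
            calc ρ a⁻¹ v = ρ a⁻¹ (ρ a v) := by rw [h1]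
              _ = v := by
                rw [← Module.End.mul_apply, ← map_mul, inv_mul_cancel, map_one]
                rfl }
      have hC : ∀ h, ∀ c ∈ C, α h c ∈ C := by
        intro h₁ c hcC
        refine ⟨hN'α _ _ hcC.1, fun v hv => ?_⟩
        rw [← hc h₁ c, ← map_inv σ]
        simp only [Module.End.mul_apply]
        rw [hcC.2 _ (hYσ _ _ hv), hinv]
      have hw : (w : Ω)⁻¹ * α h w ∈ C := by
        refine ⟨N'.mul_mem (N'.inv_mem w.2) (hN'α _ _ w.2), fun v hv => ?_⟩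
        have h1 : ρ (α h w) v = ρ (w : Ω) v := by
          have := congrArg (fun u : (Module.End k ↥Y)ˣ => (((u : Module.End k ↥Y) (⟨v, hv⟩ : ↥Y) : ↥Y) : V)) heq
          exact this
        rw [map_mul, Module.End.mul_apply, h1, ← Module.End.mul_apply, ← map_mul, inv_mul_cancel, map_one]
        rfl
      have hwC : (w : Ω) ∈ C := sect_fp α hfpf C hC hne hw
      apply Units.ext
      apply LinearMap.ext
      intro v
      apply Subtype.ext
      exact hwC.2 v v.2
    have hfixZ : ∀ v : ↥Y, (∀ ζ ∈ Z, ((ζ : (Module.End k ↥Y)ˣ) : Module.End k ↥Y) v = v) → v = 0 := by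
      intro v hv
      have h1 : (v : V) ∈ fixS ρ N' := fun n hn => by
        have := hv (τ ⟨n, hn⟩) ⟨_, rfl⟩
        exact congrArg Subtype.val this
      have h2 := hP_fix _ h1
      rw [LinearMap.mem_ker.mp v.2.2] at h2
      exact Subtype.ext h2.symm
    obtain ⟨W', e', c'⟩ := key_free σY Z hcomm hcardZ hnorm hfpZ hfixZ
    refine ⟨W'.map Y.subtype, ?_, ?_⟩
    · have e1 : ∀ h : H, (W'.map Y.subtype).map ((σ h : (Module.End k V)ˣ) : Module.End k V)
          = (W'.map ((σY h : (Module.End k ↥Y)ˣ) : Module.End k ↥Y)).map Y.subtype := by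
        intro h
        rw [← Submodule.map_comp, ← Submodule.map_comp]
        rfl
      simp_rw [e1]
      rw [← Submodule.map_iSup, e', Submodule.map_subtype_top]
    · rw [← LinearEquiv.finrank_eq (Submodule.equivMapOfInjective Y.subtype Y.injective_subtype W')]
      exact c'
  rw [hdec]
  exact hFree'.sup hFreeY hdisj

theorem free_general (ρ : Ω →* Module.End k V) (σ : H →* (Module.End k V)ˣ) (α : H →* MulAut Ω)
    (hc : ∀ h e, ((σ h : (Module.End k V)ˣ) : Module.End k V) * ρ e *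
      (((σ h)⁻¹ : (Module.End k V)ˣ) : Module.End k V) = ρ (α h e))
    (hfpf : ∀ h e, α h e = e → h = 1 ∨ e = 1)
    [hnil : Group.IsNilpotent Ω] (hcard : ((Nat.card Ω : ℕ) : k) ≠ 0)
    (h0 : ∀ v : V, (∀ e, ρ e v = v) → v = 0) :
    ∃ W : Submodule k V, (⨆ h : H, W.map ((σ h : (Module.End k V)ˣ) : Module.End k V)) = ⊤ ∧
      Fintype.card H * finrank k W = finrank k V := by
  have h1 := chain_free ρ σ α hc hfpf hcard h0 ⊥ inferInstance (fun h n hn => by
    rw [Subgroup.mem_bot] at hn ⊢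
    rw [hn, map_one])
  have h2 : fixS ρ (⊥ : Subgroup Ω) = ⊤ := by
    rw [eq_top_iff]
    intro v _ n hn
    rw [Subgroup.mem_bot] at hn
    rw [hn, map_one]
    rfl
  rw [h2] at h1
  obtain ⟨W, e, c⟩ := h1
  exact ⟨W, e, by rw [c, finrank_top]⟩

end Cfsg.Agent.Lib.FrobFree
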