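import Cfsg.Agent.Lib.FrobFree.Field

/-! From a normal-basis pair to a free decomposition of a module. -/

set_option autoImplicit false

namespace Cfsg.Agent.Lib.FrobFree

open scoped BigOperators
open Module

theorem free_of_pair {k Y R H : Type*} [Field k] [AddCommGroup Y] [Module k Y] [FiniteDimensional k Y]
    [CommRing R] [Group H] [Fintype H] [DecidableEq H] [MulSemiringAction H R]
    (σ : H →* Module.End k Y) (ψ : R →+* Module.End k Y)
    (hσψ : ∀ h r, σ h * ψ r = ψ (h • r) * σ h) (x y : R)
    (h1 : ∀ γ : H, ∑ g : H, g • (y * (γ • x)) = if γ = 1 then 1 else 0)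
    (h2 : ∀ γ : H, ∑ a : H, a • x * (γ * a) • y = if γ = 1 then 1 else 0) :
    ∃ W : Submodule k Y, (⨆ h : H, W.map (σ h)) = ⊤ ∧
      Fintype.card H * finrank k W = finrank k Y := by
  classical
  set T : Module.End k Y := ∑ g : H, σ g with hT
  have hT1 : ∀ h, σ h * T = T := by
    intro h
    rw [hT, Finset.mul_sum]
    simp_rw [← map_mul]
    exact Fintype.sum_equiv (Equiv.mulLeft h) _ _ (fun _ => rfl)
  have hT2 : ∀ h, T * σ h = T := by
    intro h
    rw [hT, Finset.sum_mul]
    simp_rw [← map_mul]
    exact Fintype.sum_equiv (Equiv.mulRight h) _ _ (fun _ => rfl)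
  have hinv1 : ∀ h : H, σ h * σ h⁻¹ = 1 := fun h => by rw [← map_mul, mul_inv_cancel, map_one]
  have hinv2 : ∀ h : H, σ h⁻¹ * σ h = 1 := fun h => by rw [← map_mul, inv_mul_cancel, map_one]
  have hψinv : ∀ (h : H) (r : R), ψ r * σ h⁻¹ = σ h⁻¹ * ψ (h • r) := by
    intro h r
    rw [hσψ, smul_smul, inv_mul_cancel, one_smul]
  set φ : Module.End k Y := ψ x * T * ψ y with hφ
  let E : H → Module.End k Y := fun h => ψ (h • x) * T * ψ (h • y)
  have hEconj : ∀ h, σ h * φ * σ h⁻¹ = E h := by
    intro h
    calc σ h * φ * σ h⁻¹ = (σ h * ψ x) * T * (ψ y * σ h⁻¹) := by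
          rw [hφ]; noncomm_ring
      _ = ψ (h • x) * (σ h * T) * σ h⁻¹ * ψ (h • y) := by
          rw [hσψ, hψinv]; noncomm_ring
      _ = E h := by
          rw [hT1, mul_assoc (ψ (h • x)), hT2]
  have hT3 : ∀ r : R, T * ψ r * T = ψ (∑ g : H, g • r) * T := by
    intro r
    have e : T * ψ r = ∑ g : H, ψ (g • r) * σ g := by
      rw [hT, Finset.sum_mul]
      exact Finset.sum_congr rfl (fun g _ => hσψ g r)
    rw [e, Finset.sum_mul, map_sum, Finset.sum_mul]
    refine Finset.sum_congr rfl (fun g _ => ?_)
    rw [mul_assoc, hT1]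
  have hE_mul : ∀ a b, E a * E b = if a = b then E a else 0 := by
    intro a b
    have e1 : E a * E b = ψ (a • x) * (T * ψ (a • y * b • x) * T) * ψ (b • y) := by
      simp only [E, map_mul]
      noncomm_ring
    rw [e1, hT3]
    have e2 : ∑ g : H, g • (a • y * b • x) = if a = b then 1 else 0 := by
      have e3 : ∑ g : H, g • (a • y * b • x) = ∑ g : H, g • (y * ((a⁻¹ * b) • x)) := by
        refine Fintype.sum_equiv (Equiv.mulRight a) _ _ (fun g => ?_)
        simp only [Equiv.coe_mulRight]
        rw [smul_mul', smul_mul', smul_smul, smul_smul, smul_smul]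
        congr 2
        group
      rw [e3, h1]
      by_cases hab : a = b
      · subst hab
        simp
      · have : a⁻¹ * b ≠ 1 := fun h' => hab (inv_mul_eq_one.mp h')
        simp [hab, this]
    rw [e2]
    by_cases hab : a = b
    · subst hab
      simp only [if_true, map_one, one_mul]
      simp only [E]
    · simp [hab]
  have hE_sum : ∑ h : H, E h = 1 := by
    have e1 : ∀ h : H, E h = ∑ g : H, ψ (h • x * (g * h) • y) * σ g := by
      intro h
      simp only [E]
      rw [hT, Finset.mul_sum, Finset.sum_mul]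
      refine Finset.sum_congr rfl (fun g _ => ?_)
      rw [mul_assoc, hσψ, ← mul_assoc, map_mul, mul_smul]
    simp_rw [e1]
    rw [Finset.sum_comm]
    simp_rw [← Finset.sum_mul, ← map_sum]
    simp_rw [h2]
    rw [Finset.sum_eq_single (1 : H)]
    · simp
    · intro g _ hg
      simp [hg]
    · simp
  let W : Submodule k Y := LinearMap.range φ
  have hσbij : ∀ h, Function.Surjective (σ h) := by
    intro h v
    refine ⟨σ h⁻¹ v, ?_⟩
    have := congrArg (fun f : Module.End k Y => f v) (hinv1 h)
    simpa [Module.End.mul_apply] using this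
  have hσinj : ∀ h, Function.Injective (σ h) := by
    intro h u v huv
    have := congrArg (fun f : Module.End k Y => f u) (hinv2 h)
    have h2' := congrArg (fun f : Module.End k Y => f v) (hinv2 h)
    simp only [Module.End.mul_apply, Module.End.one_apply] at this h2'
    rw [← this, ← h2', huv]
  have hmap : ∀ h, W.map (σ h) = LinearMap.range (E h) := by
    intro h
    apply le_antisymm
    · rintro _ ⟨_, ⟨u, rfl⟩, rfl⟩
      refine ⟨σ h u, ?_⟩
      rw [← hEconj]
      simp only [Module.End.mul_apply]
      have := congrArg (fun f : Module.End k Y => f u) (hinv2 h)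
      simp only [Module.End.mul_apply, Module.End.one_apply] at this
      rw [this]
    · rintro _ ⟨u, rfl⟩
      rw [← hEconj]
      refine ⟨φ (σ h⁻¹ u), ⟨_, rfl⟩, ?_⟩
      simp only [Module.End.mul_apply]
  have hFr : ∀ h, finrank k (LinearMap.range (E h)) = finrank k W := by
    intro h
    rw [← hmap]
    exact (LinearEquiv.finrank_eq (Submodule.equivMapOfInjective (σ h) (hσinj h) W)).symm
  have hEidem : ∀ (a b : H) (u : Y), u ∈ LinearMap.range (E b) → E a u = if a = b then u else 0 := by
    rintro a b _ ⟨w, rfl⟩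
    have := congrArg (fun f : Module.End k Y => f w) (hE_mul a b)
    simp only [Module.End.mul_apply] at this
    rw [this]
    by_cases hab : a = b
    · subst hab
      simp
    · simp [hab]
  have hsumv : ∀ v : Y, ∑ h : H, E h v = v := by
    intro v
    have := congrArg (fun f : Module.End k Y => f v) hE_sum
    simpa [LinearMap.sum_apply] using this
  refine ⟨W, ?_, ?_⟩
  · simp_rw [hmap]
    rw [eq_top_iff]
    intro v _
    rw [← hsumv v]
    exact Submodule.sum_mem _ (fun h _ => Submodule.mem_iSup_of_mem h ⟨v, rfl⟩)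
  · let F₀ : Y →ₗ[k] (∀ h : H, LinearMap.range (E h)) := LinearMap.pi fun h => (E h).rangeRestrict
    let G₀ : (∀ h : H, LinearMap.range (E h)) →ₗ[k] Y :=
      ∑ h : H, (LinearMap.range (E h)).subtype ∘ₗ LinearMap.proj h
    have hG₀ : ∀ u, G₀ u = ∑ h : H, (u h : Y) := by
      intro u
      simp [G₀, LinearMap.sum_apply]
    let e : Y ≃ₗ[k] (∀ h : H, LinearMap.range (E h)) :=
      LinearEquiv.ofLinear F₀ G₀
        (by
          refine LinearMap.ext fun u => funext fun b => Subtype.ext ?_
          change E b (G₀ u) = (u b : Y)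
          rw [hG₀, map_sum, Finset.sum_eq_single b]
          · rw [hEidem b b _ (u b).2]
            simp
          · intro c _ hc
            rw [hEidem b c _ (u c).2]
            simp [hc.symm]
          · simp)
        (by
          refine LinearMap.ext fun v => ?_
          change G₀ (F₀ v) = v
          rw [hG₀]
          exact hsumv v)
    rw [e.finrank_eq, Module.finrank_pi_fintype]
    simp_rw [hFr]
    simp

end Cfsg.Agent.Lib.FrobFree
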